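import Cfsg.Agent.H587.Sp.DefC

/-!
# `PSL_2` : subgroups containing the unipotent group; identities (helper686)
-/

set_option autoImplicit false

namespace Cfsg.Agent.H686.EP

open Matrix
open Cfsg.Agent.LieClassical.SLTwoUnipotent
open Cfsg.Agent.H906 (unP dg dg_val dg_pow un un_val)
open Cfsg.Agent.H587.Sp (ww)

variable {K : Type*} [Field K]

theorem sl_gen (H : Subgroup (SpecialLinearGroup (Fin 2) K)) (hu : ∀ x, u x ∈ H) {g : SpecialLinearGroup (Fin 2) K}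
    (hg : g.1 1 0 ≠ 0) (hgH : g ∈ H) : H = ⊤ := by
  set c := g.1 1 0 with hc
  have h1 : l c ∈ H := by
    have h2 := eq_u_mul_l_mul_u g hg
    have h3 : l c = (u ((g.1 0 0 - 1) / c))⁻¹ * g * (u ((g.1 1 1 - 1) / c))⁻¹ := by
      have h2' : g = u ((g.1 0 0 - 1) / c) * l c * u ((g.1 1 1 - 1) / c) := h2
      rw [eq_mul_inv_iff_mul_eq, eq_inv_mul_iff_mul_eq, ← mul_assoc]
      exact h2'.symm
    rw [h3]
    exact H.mul_mem (H.mul_mem (H.inv_mem (hu _)) hgH) (H.inv_mem (hu _))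
  set w := u (-c⁻¹) * l c * u (-c⁻¹) with hw
  have hwH : w ∈ H := H.mul_mem (H.mul_mem (hu _) h1) (hu _)
  have hw1 : w.1 = !![0, -c⁻¹; c, 0] := by
    show (u (-c⁻¹)).1 * (l c).1 * (u (-c⁻¹)).1 = _
    change !![1, -c⁻¹; 0, 1] * !![1, 0; c, 1] * !![1, -c⁻¹; 0, 1] = _
    rw [Matrix.mul_fin_two, Matrix.mul_fin_two]
    ext i j
    fin_cases i <;> fin_cases j <;> simp [hg]
  apply eq_top_of_u_mem_of_l_mem H hu
  intro x
  have h2 : l x * w = w * u (-x / c ^ 2) := by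
    apply Subtype.ext
    show (l x).1 * w.1 = w.1 * (u (-x / c ^ 2)).1
    rw [hw1]
    change !![1, 0; x, 1] * !![0, -c⁻¹; c, 0] = !![0, -c⁻¹; c, 0] * !![1, -x / c ^ 2; 0, 1]
    rw [Matrix.mul_fin_two, Matrix.mul_fin_two]
    ext i j
    fin_cases i <;> fin_cases j <;> simp
    field_simp
  have h3 : l x = w * u (-x / c ^ 2) * w⁻¹ := by rw [← h2, mul_inv_cancel_right]
  rw [h3]
  exact H.mul_mem (H.mul_mem hwH (hu _)) (H.inv_mem hwH)

/-- a subgroup of `PSL_2` containing the unipotent group and an element outside the Borel subgroup -/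
theorem psl_gen (H : Subgroup (Matrix.ProjectiveSpecialLinearGroup (Fin 2) K))
    (hu : ∀ x, unP K (Multiplicative.ofAdd x) ∈ H) {g : SpecialLinearGroup (Fin 2) K}
    (hg : g.1 1 0 ≠ 0) (hgH : (QuotientGroup.mk g : Matrix.ProjectiveSpecialLinearGroup (Fin 2) K) ∈ H) :
    H = ⊤ := by
  have h1 := sl_gen (H.comap (QuotientGroup.mk' _)) (fun x => hu x) hg hgH
  rw [eq_top_iff]
  intro x _
  obtain ⟨x, rfl⟩ := QuotientGroup.mk_surjective x
  have h2 : x ∈ H.comap (QuotientGroup.mk' (Subgroup.center (SpecialLinearGroup (Fin 2) K))) := by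
    rw [h1]; trivial
  exact h2

theorem ww_sq : (QuotientGroup.mk (ww K * ww K) : Matrix.ProjectiveSpecialLinearGroup (Fin 2) K) = 1 := by
  rw [QuotientGroup.eq_one_iff, Matrix.SpecialLinearGroup.mem_center_iff]
  refine ⟨-1, by rw [Fintype.card_fin]; ring, ?_⟩
  show _ = !![(0 : K), 1; -1, 0] * !![0, 1; -1, 0]
  rw [Matrix.mul_fin_two]
  ext i j
  fin_cases i <;> fin_cases j <;> simp

theorem dg_ww_dg (t : Kˣ) : dg t * ww K * dg t = ww K := by
  apply Subtype.ext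
  show (dg t).1 * !![(0 : K), 1; -1, 0] * (dg t).1 = !![(0 : K), 1; -1, 0]
  rw [dg_val, Matrix.mul_fin_two, Matrix.mul_fin_two]
  ext i j
  fin_cases i <;> fin_cases j <;> simp

theorem ww_un_ww {b : K} (hb : b ≠ 0) : ww K * un b * ww K =
    un (-b⁻¹) * ww K * dg (-(Units.mk0 b hb)) * un (-b⁻¹) := by
  apply Subtype.ext
  show !![(0 : K), 1; -1, 0] * (un b).1 * !![(0 : K), 1; -1, 0] =
    (un (-b⁻¹)).1 * !![(0 : K), 1; -1, 0] * (dg (-(Units.mk0 b hb))).1 * (un (-b⁻¹)).1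
  rw [dg_val, un_val, un_val]
  simp only [Units.val_neg, Units.val_mk0, inv_neg, Units.val_inv_eq_inv_val]
  rw [Matrix.mul_fin_two, Matrix.mul_fin_two, Matrix.mul_fin_two, Matrix.mul_fin_two, Matrix.mul_fin_two]
  ext i j
  fin_cases i <;> fin_cases j <;> simp [hb]

end Cfsg.Agent.H686.EP
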